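/-
Isolated `p`-minimal subgroups: the abstract setting.

All the arguments take place in a finite group `B` with `O_p(B) = 1`, with subgroups `S`, `R`, `X`, `L`
such that every overgroup of `S` contains `X` or lies in `L`, `R ≤ S`, `L` normalizes `R`, and `R` does
not centralize `X`.
-/
import Cfsg.Agent.Lib.PReduced.McBride
import Cfsg.Agent.Lib.Components.Basic
import Cfsg.Agent.Lib.Components.GenFitting
import Cfsg.Agent.Lib.Coprime.Bridge
import Cfsg.Agent.Lib.Core.Basic
import Cfsg.Agent.Lib.Transfer.Basic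
import Cfsg.Agent.Lib.PGroups.Basic

set_option autoImplicit false
set_option linter.style.haveILetI false
set_option linter.unusedSectionVars false

namespace Cfsg.Agent.Lib.PIso.Basic

open Subgroup Cfsg Cfsg.Agent.Lib.Core.Basic Cfsg.Agent.Lib.Components.Basic
  Cfsg.Agent.Lib.Coprime.Action Cfsg.Agent.Lib.Transfer.Basic
open scoped commutatorElement

universe u

section Maschke

variable {B : Type u} [Group B] [Finite B]

/-- Maschke on the Frattini quotient of a normalized `t`-subgroup. -/
theorem exists_inv_compl {t : ℕ} [Fact t.Prime] (T S : Subgroup B)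
    (hST : S ≤ normalizer (T : Set B)) (htT : IsPGroup t T)
    (hcop : (Nat.card S).Coprime (Nat.card T)) (X₀ : Subgroup T)
    (hX₀ : ∀ s ∈ S, ∀ x : T, x ∈ X₀ → ∀ h, (⟨s * x * s⁻¹, h⟩ : T) ∈ X₀) :
    ∃ C : Subgroup T, (∀ s ∈ S, ∀ x : T, x ∈ C → ∀ h, (⟨s * x * s⁻¹, h⟩ : T) ∈ C) ∧
      frattini T ≤ C ∧ C ⊓ X₀ ≤ frattini T ∧ C ⊔ X₀ = ⊤ := by
  letI act : MulDistribMulAction S T :=
    { smul := fun a x => ⟨(a : B) * x * (a : B)⁻¹, conj_mem_of_le_normalizer hST a.2 x.2⟩
      one_smul := fun x => Subtype.ext (by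
        show ((1 : S) : B) * x * ((1 : S) : B)⁻¹ = x
        simp)
      mul_smul := fun a b x => Subtype.ext (by
        show ((a * b : S) : B) * x * ((a * b : S) : B)⁻¹ = (a : B) * ((b : B) * x * (b : B)⁻¹) * (a : B)⁻¹
        simp only [coe_mul, mul_inv_rev]
        group)
      smul_mul := fun a x y => Subtype.ext (by
        show (a : B) * ((x * y : T) : B) * (a : B)⁻¹ =
          ((a : B) * x * (a : B)⁻¹) * ((a : B) * y * (a : B)⁻¹)
        simp only [coe_mul]
        group)
      smul_one := fun a => Subtype.ext (by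
        show (a : B) * ((1 : T) : B) * (a : B)⁻¹ = 1
        simp) }
  obtain ⟨C, hC1, hC2, hC3, hC4⟩ := Cfsg.Agent.Lib.Coprime.Bridge.exists_invariant_complement_frattini
    (A := S) (G := T) (p := t) hcop
    (fun x y => Cfsg.Agent.Lib.PGroups.Basic.commutator_le_frattini htT
      (Subgroup.commutator_mem_commutator (Subgroup.mem_top _) (Subgroup.mem_top _)))
    (fun x => Cfsg.Agent.Lib.PGroups.Basic.pow_mem_frattini htT x) X₀
    (fun a x hx => hX₀ a a.2 x hx _)
  exact ⟨C, fun s hs x hx _ => hC1 ⟨s, hs⟩ x hx, hC2, hC3, hC4⟩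

end Maschke

section Abstract

variable {B : Type u} [Group B] [Finite B] {p : ℕ} [hp : Fact p.Prime]

/-- The abstract setting. -/
structure IsoData (p : ℕ) (S R X L : Subgroup B) : Prop where
  hSp : IsPGroup p S
  hRS : R ≤ S
  hSL : S ≤ L
  hLR : L ≤ normalizer (R : Set B)
  hSX : S ≤ normalizer (X : Set B)
  hdich : ∀ H : Subgroup B, S ≤ H → X ≤ H ∨ H ≤ L
  hRX : ¬ X ≤ centralizer (R : Set B)
  hgen : X ⊔ L = ⊤
  hOp : pCore p B = ⊥
  hXgen : ∀ N : Subgroup B, S ≤ normalizer (N : Set B) → X ≤ N ⊔ S → X ≤ N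

variable {S R X L : Subgroup B}

/-- An `S`-invariant subgroup of a `p'`-subgroup containing `X` contains `X` or is centralized by `R`. -/
theorem IsoData.star (I : IsoData p S R X L) {T T₁ : Subgroup B} (hTc : (Nat.card T).Coprime p)
    (hXT : X ≤ T) (hT₁ : T₁ ≤ T) (hST : S ≤ normalizer (T₁ : Set B)) :
    X ≤ T₁ ∨ T₁ ≤ centralizer (R : Set B) := by
  have hTS : T ⊓ S = ⊥ := by
    rw [inf_comm]
    exact inf_eq_bot_of_isPGroup_of_coprime I.hSp hTc
  rcases I.hdich (T₁ ⊔ S) le_sup_right with h | h
  · left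
    intro x hx
    have h1 := h hx
    rw [sup_comm] at h1
    obtain ⟨s, hs, t, ht, rfl⟩ := mem_sup_of_le_normalizer hST h1
    have hsT : s ∈ T := by
      have h2 := T.mul_mem (hXT hx) (T.inv_mem (hT₁ ht))
      simpa using h2
    have h3 : s ∈ T ⊓ S := ⟨hsT, hs⟩
    rw [hTS, mem_bot] at h3
    subst h3
    simpa using ht
  · right
    intro t ht
    rw [mem_centralizer_iff]
    intro r hr
    have htL : t ∈ L := h ((le_sup_left : T₁ ≤ T₁ ⊔ S) ht)
    have h1 : t * r * t⁻¹ ∈ R := (mem_normalizer_iff.1 (I.hLR htL) r).1 hr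
    have h2 : r * t⁻¹ * r⁻¹ ∈ T₁ := (mem_normalizer_iff.1 (hST (I.hRS hr)) t⁻¹).1 (T₁.inv_mem ht)
    have h3 : t * r * t⁻¹ * r⁻¹ ∈ R := R.mul_mem h1 (R.inv_mem hr)
    have h4 : t * r * t⁻¹ * r⁻¹ ∈ T₁ := by
      have h5 := T₁.mul_mem ht h2
      convert h5 using 1
      group
    have h5 : t * r * t⁻¹ * r⁻¹ ∈ T ⊓ S := ⟨hT₁ h4, I.hRS h3⟩
    rw [hTS, mem_bot] at h5
    have h6 : t * r * t⁻¹ = r := by
      rwa [mul_inv_eq_one] at h5
    rw [mul_inv_eq_iff_eq_mul] at h6
    exact h6.symm

theorem IsoData.ne_bot (I : IsoData p S R X L) : X ≠ ⊥ := by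
  rintro rfl
  exact I.hRX bot_le

/-- A normal subgroup of `B` lying in `L` centralizes `R`. -/
theorem IsoData.cent_of_normal_le (I : IsoData p S R X L) {N : Subgroup B} (hN : N.Normal)
    (hNL : N ≤ L) : R ≤ centralizer (N : Set B) := by
  have hRp : IsPGroup p R := I.hSp.to_le I.hRS
  have hNRn : ((N ⊓ R).subgroupOf N).Normal := by
    constructor
    intro n hn g
    rw [mem_subgroupOf] at hn ⊢
    refine ⟨?_, ?_⟩
    · simpa using N.mul_mem (N.mul_mem g.2 hn.1) (N.inv_mem g.2)
    · exact (mem_normalizer_iff.1 (I.hLR (hNL g.2)) _).1 hn.2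
  have hNRs : (N ⊓ R).IsSubnormal := IsSubnormal.step _ _ inf_le_left hN.isSubnormal hNRn
  have h1 : N ⊓ R ≤ pCore p B := le_pCore_of_isSubnormal hNRs (hRp.to_le inf_le_right)
  rw [I.hOp] at h1
  intro r hr
  rw [mem_centralizer_iff]
  intro n hn
  have h3 : n * r * n⁻¹ ∈ R := (mem_normalizer_iff.1 (I.hLR (hNL hn)) r).1 hr
  have h4 : n * r * n⁻¹ * r⁻¹ ∈ R := R.mul_mem h3 (R.inv_mem hr)
  have h5 : n * r * n⁻¹ * r⁻¹ ∈ N := by
    have h6 := hN.conj_mem n⁻¹ (N.inv_mem hn) r
    have h7 := N.mul_mem hn h6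
    convert h7 using 1
    group
  have h6 := h1 ⟨h5, h4⟩
  rw [mem_bot, mul_inv_eq_one, mul_inv_eq_iff_eq_mul] at h6
  exact h6

theorem IsoData.not_gF_le (I : IsoData p S R X L) : ¬ generalizedFittingSubgroup B ≤ L := by
  intro hNL
  have hN : (generalizedFittingSubgroup B).Normal := generalizedFitting_normal
  apply I.hRX
  have h2 := I.cent_of_normal_le hN hNL
  have hRp : IsPGroup p R := I.hSp.to_le I.hRS
  have h3 : R ≤ generalizedFittingSubgroup B :=
    h2.trans Cfsg.Agent.Lib.Components.GenFitting.centralizer_generalizedFitting_le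
  have h4 : R = ⊥ := by
    rw [eq_bot_iff]
    intro r hr
    have h5 := le_centralizer_iff.1 h2
    have hNRn : ((generalizedFittingSubgroup B ⊓ R).subgroupOf (generalizedFittingSubgroup B)).Normal := by
      constructor
      intro n hn g
      rw [mem_subgroupOf] at hn ⊢
      refine ⟨?_, ?_⟩
      · simpa using mul_mem (mul_mem g.2 hn.1) (inv_mem g.2)
      · exact (mem_normalizer_iff.1 (I.hLR (hNL g.2)) _).1 hn.2
    have hNRs : (generalizedFittingSubgroup B ⊓ R).IsSubnormal :=
      IsSubnormal.step _ _ inf_le_left hN.isSubnormal hNRn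
    have h6 : generalizedFittingSubgroup B ⊓ R ≤ pCore p B :=
      le_pCore_of_isSubnormal hNRs (hRp.to_le inf_le_right)
    rw [I.hOp] at h6
    exact h6 ⟨h3 hr, hr⟩
  rw [h4]
  intro x _
  rw [mem_centralizer_iff]
  intro h hh
  have : h = 1 := hh
  rw [this, one_mul, mul_one]

/-- `X ≤ F*(B)`. -/
theorem IsoData.le_gF (I : IsoData p S R X L) : X ≤ generalizedFittingSubgroup B := by
  have hN : (generalizedFittingSubgroup B).Normal := generalizedFitting_normal
  rcases I.hdich (generalizedFittingSubgroup B ⊔ S) le_sup_right with h | h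
  · refine I.hXgen _ ?_ h
    rw [normalizer_eq_top_iff.2 hN]
    exact le_top
  · exact absurd (le_sup_left.trans h) I.not_gF_le

/-- The centre of the layer lies in the Fitting subgroup. -/
theorem layer_inf_centralizer_le_fitting : layer B ⊓ centralizer (layer B : Set B) ≤ fittingSubgroup B := by
  have hlayer : (layer B).Normal := layer_normal
  have hAn : (layer B ⊓ centralizer (layer B : Set B)).Normal := by
    haveI := hlayer
    exact inferInstance
  have hAc : IsMulCommutative ↥(layer B ⊓ centralizer (layer B : Set B)) := by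
    refine ⟨⟨fun a b => Subtype.ext ?_⟩⟩
    have h3 := mem_centralizer_iff.1 a.2.2 b b.2.1
    exact h3.symm
  exact le_fittingSubgroup hAn (isNilpotent_of_isMulCommutative)

/-- A normal solvable subgroup of `F*(B)` lies in `F(B)`. -/
theorem le_fitting_of_solvable {T : Subgroup B} (hTn : T.Normal) (hTs : Group.IsSolvable T)
    (hT : T ≤ generalizedFittingSubgroup B) : T ≤ fittingSubgroup B := by
  have hcomp : ∀ K : Subgroup B, IsComponent K → ⁅K, T⁆ = ⊥ := by
    intro K hK
    rcases component_le_or_commutator_eq_bot hK hTn.isSubnormal with h | h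
    · exfalso
      apply quasisimple_not_solvable hK.2
      have h1 : Group.IsSolvable (K.subgroupOf T) := inferInstance
      exact Group.isSolvable_of_surjective (f := (subgroupOfEquivOfLe h).toMonoidHom) (subgroupOfEquivOfLe h).surjective
    · exact h
  have hE : ⁅layer B, T⁆ = ⊥ := by
    rw [commutator_eq_bot_iff_le_centralizer]
    apply sSup_le
    intro K hK
    rw [← commutator_eq_bot_iff_le_centralizer]
    exact hcomp K hK
  intro y hy
  have h1 := hT hy
  obtain ⟨e, he, f, hf, rfl⟩ := mem_sup_of_commutator_eq_bot commutator_layer_fitting h1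
  -- `e` centralizes the layer
  have hfE : ∀ k ∈ layer B, k * f = f * k := by
    intro k hk
    have h2 := commutator_mem_commutator hk hf
    rw [commutator_layer_fitting, mem_bot, commutatorElement_eq_one_iff_commute] at h2
    exact h2
  have hyE : ∀ k ∈ layer B, k * (e * f) = (e * f) * k := by
    intro k hk
    have h2 := commutator_mem_commutator hk hy
    rw [hE, mem_bot, commutatorElement_eq_one_iff_commute] at h2
    exact h2
  have heE : ∀ k ∈ layer B, k * e = e * k := by
    intro k hk
    have h2 := hyE k hk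
    have h3 : k * e * f = e * k * f := by
      rw [mul_assoc, h2, mul_assoc, ← hfE k hk, mul_assoc]
    exact mul_right_cancel h3
  have heA : e ∈ layer B ⊓ centralizer (layer B : Set B) := ⟨he, mem_centralizer_iff.2 heE⟩
  exact (fittingSubgroup B).mul_mem (layer_inf_centralizer_le_fitting heA) hf

/-- The main theorem of the solvable case. -/
theorem IsoData.main_nilp (I : IsoData p S R X L) {T : Subgroup B} (hT : T = normalClosure (X : Set B))
    (hnil : Group.IsNilpotent T) :
    ∃ t : ℕ, t.Prime ∧ t ≠ p ∧ IsPGroup t T ∧ X = T ∧ ⁅T, ⁅T, T⁆⁆ = ⊥ := by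
  classical
  have hTn : T.Normal := hT ▸ normalClosure_normal
  have hXT : X ≤ T := by rw [hT]; exact subset_normalClosure
  have hX1 := I.ne_bot
  have hT1 : T ≠ ⊥ := fun h => hX1 (le_bot_iff.1 (h ▸ hXT))
  have hRp : IsPGroup p R := I.hSp.to_le I.hRS
  -- `T` is a `p'`-group
  have hpcore : pCore p T = ⊥ := by
    have h1 := map_pCore_le_of_isSubnormal (p := p) hTn.isSubnormal
    rw [I.hOp, le_bot_iff] at h1
    exact (map_eq_bot_iff_of_injective _ T.subtype_injective).1 h1
  have hTc : (Nat.card T).Coprime p := by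
    obtain ⟨Q⟩ : Nonempty (Sylow p T) := inferInstance
    have hQn : (Q : Subgroup T).Normal :=
      Sylow.normal_of_normalizerCondition (Group.normalizerCondition_of_isNilpotent) Q
    have h2 : (Q : Subgroup T) ≤ pCore p T := le_pCore hQn Q.isPGroup'
    rw [hpcore, le_bot_iff] at h2
    have h3 := Q.not_dvd_index
    rw [h2, index_bot] at h3
    exact (hp.out.coprime_iff_not_dvd.2 h3).symm
  have hRT : R ≤ normalizer (T : Set B) := by
    rw [normalizer_eq_top_iff.2 hTn]
    exact le_top
  have hST : S ≤ normalizer (T : Set B) := by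
    rw [normalizer_eq_top_iff.2 hTn]
    exact le_top
  have hLT : L ≤ normalizer (T : Set B) := by
    rw [normalizer_eq_top_iff.2 hTn]
    exact le_top
  have hRc : (Nat.card R).Coprime (Nat.card T) := by
    obtain ⟨k, hk⟩ := IsPGroup.iff_card.1 hRp
    rw [hk]
    exact (hTc.symm.pow_left k)
  have hSc : (Nat.card S).Coprime (Nat.card T) := by
    obtain ⟨k, hk⟩ := IsPGroup.iff_card.1 I.hSp
    rw [hk]
    exact (hTc.symm.pow_left k)
  have hsolT : Group.IsSolvable R ∨ Group.IsSolvable T := Or.inr inferInstance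
  have hnormal : ∀ Q : Subgroup T, Q.Characteristic → S ≤ normalizer ((Q.map T.subtype : Subgroup B) : Set B) := by
    intro Q hQ
    have h1 : (Q.map T.subtype).Normal := map_subtype_normal_of_characteristic T Q
    rw [normalizer_eq_top_iff.2 h1]
    exact le_top
  -- a prime
  obtain ⟨t, htp, hXt⟩ : ∃ t : ℕ, t.Prime ∧ X ≤ (pCore t T).map T.subtype := by
    by_contra hcon
    push Not at hcon
    have h1 : ∀ q : ℕ, q.Prime → (pCore q T).map T.subtype ≤ centralizer (R : Set B) := by
      intro q hq
      haveI : Fact q.Prime := ⟨hq⟩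
      rcases I.star hTc hXT (map_subtype_le _) (hnormal (pCore q T) inferInstance) with h | h
      · exact absurd h (hcon q hq)
      · exact h
    apply I.hRX
    have h2 : (⊤ : Subgroup T) ≤ ⨆ q : Nat.Primes, pCore (q : ℕ) T :=
      le_iSup_pCore_of_nilpotent normal_top (by
        exact Group.nilpotent_of_mulEquiv Subgroup.topEquiv.symm)
    have h3 : (⨆ q : Nat.Primes, pCore (q : ℕ) T) ≤ (centralizer (R : Set B)).subgroupOf T := by
      refine iSup_le fun q => ?_
      intro x hx
      rw [mem_subgroupOf]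
      exact h1 q q.2 ⟨x, hx, rfl⟩
    intro x hx
    have h4 := h3 (h2 (mem_top (⟨x, hXT hx⟩ : T)))
    rw [mem_subgroupOf] at h4
    exact h4
  haveI : Fact t.Prime := ⟨htp⟩
  have hTle : T ≤ (pCore t T).map T.subtype := by
    have hn : ((pCore t T).map T.subtype).Normal := map_subtype_normal_of_characteristic T _
    rw [hT]
    conv_rhs => rw [← hT]
    exact normalClosure_le_normal (by exact_mod_cast hXt)
  have htT : IsPGroup t T := by
    have h1 : IsPGroup t ((pCore t T).map T.subtype) := pCore_isPGroup.map _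
    exact h1.to_le hTle
  have htne : t ≠ p := by
    rintro rfl
    obtain ⟨k, hk⟩ := IsPGroup.iff_card.1 htT
    rw [hk] at hTc
    have hk0 : k = 0 := by
      by_contra hne
      have h1 := Nat.Coprime.coprime_dvd_left (dvd_pow_self t hne) hTc
      exact hp.out.one_lt.ne' (by simpa using h1)
    subst hk0
    rw [pow_zero] at hk
    exact hT1 (card_eq_one.1 hk)
  refine ⟨t, htp, htne, htT, ?_⟩
  -- `T = [T, R]`
  set W : Subgroup B := ⁅T, R⁆ with hW
  have hWT : W ≤ T := commutator_le_of_le_normalizer hRT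
  have hLW : L ≤ normalizer (W : Set B) := le_normalizer_commutator_of_le hLT I.hLR
  have hSW : S ≤ normalizer (W : Set B) := I.hSL.trans hLW
  have hWW : ⁅W, R⁆ = W := commutator_commutator_eq hRT hRc hsolT
  have hXW : X ≤ W := by
    rcases I.star hTc hXT hWT hSW with h | h
    · exact h
    · exfalso
      have h1 : ⁅W, R⁆ = ⊥ := by
        rw [eq_bot_iff, commutator_le]
        intro w hw r hr
        have h2 := mem_centralizer_iff.1 (h hw) r hr
        rw [mem_bot, commutatorElement_eq_one_iff_commute]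
        exact h2.symm
      rw [hWW] at h1
      have h2 := commutator_sup_fixed hRT hRc hsolT
      rw [← hW, h1, bot_sup_eq] at h2
      apply I.hRX
      refine hXT.trans ?_
      rw [← h2]
      exact inf_le_right
  have hTW : T ≤ W := by
    have hn : W.Normal := by
      rw [← normalizer_eq_top_iff, eq_top_iff, ← I.hgen]
      exact sup_le (hXW.trans le_normalizer) hLW
    rw [hT]
    exact normalClosure_le_normal (by exact_mod_cast hXW)
  have hTW' : ⁅T, R⁆ = T := le_antisymm hWT hTW
  -- Maschke
  obtain ⟨C, hC1, hC2, hC3, hC4⟩ := exists_inv_compl T S hST htT hSc (X.subgroupOf T) (by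
    intro s hs x hx _
    rw [mem_subgroupOf] at hx ⊢
    exact (mem_normalizer_iff.1 (I.hSX hs) _).1 hx)
  have hFne : frattini T ≠ ⊤ := by
    intro hF
    have h1 : (⊥ : Subgroup T) ⊔ frattini T = ⊤ := by rw [hF, sup_top_eq]
    have h2 := frattini_nongenerating h1
    apply hT1
    rw [eq_bot_iff]
    intro x hx
    have h3 : (⟨x, hx⟩ : T) ∈ (⊥ : Subgroup T) := by rw [h2]; trivial
    rw [mem_bot] at h3
    exact congrArg Subtype.val h3
  have hSC : S ≤ normalizer ((C.map T.subtype : Subgroup B) : Set B) := by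
    intro s hs
    rw [mem_normalizer_iff]
    intro y
    constructor
    · rintro ⟨x, hx, rfl⟩
      exact ⟨_, hC1 s hs x hx (conj_mem_of_le_normalizer hST hs x.2), rfl⟩
    · rintro ⟨x, hx, hxy⟩
      have hyT : y = s⁻¹ * x * s⁻¹⁻¹ := by
        have : (x : B) = s * y * s⁻¹ := hxy
        rw [this]
        group
      refine ⟨_, hC1 s⁻¹ (S.inv_mem hs) x hx (conj_mem_of_le_normalizer hST (S.inv_mem hs) x.2), ?_⟩
      exact hyT.symm
  have hXT' : X = T := by
    rcases I.star hTc hXT (map_subtype_le C) hSC with h | h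
    · exfalso
      have h1 : X.subgroupOf T ≤ C := by
        intro x hx
        have h2 := h (mem_subgroupOf.1 hx)
        obtain ⟨y, hy, hyx⟩ := h2
        have : y = x := Subtype.ext hyx
        rwa [← this]
      rw [inf_eq_right.2 h1] at hC3
      have h2 : ((frattini T).map T.subtype).Normal := map_subtype_normal_of_characteristic T _
      have h3 : X ≤ (frattini T).map T.subtype := by
        intro x hx
        exact ⟨⟨x, hXT hx⟩, hC3 (mem_subgroupOf.2 hx), rfl⟩
      have h4 : T ≤ (frattini T).map T.subtype := by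
        conv_lhs => rw [hT]
        exact normalClosure_le_normal (by exact_mod_cast h3)
      apply hFne
      rw [eq_top_iff]
      intro x _
      obtain ⟨y, hy, hyx⟩ := h4 x.2
      have : y = x := Subtype.ext hyx
      rwa [← this]
    · apply le_antisymm hXT
      rw [← hTW', commutator_le]
      intro t' ht' r hr
      -- decomposition
      have hCn : C.Normal := by
        constructor
        intro c hc g
        have h1 : g * c * g⁻¹ * c⁻¹ ∈ C :=
          hC2 (Cfsg.Agent.Lib.PGroups.Basic.commutator_le_frattini htT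
            (Subgroup.commutator_mem_commutator (mem_top g) (mem_top c)))
        have h2 := C.mul_mem h1 hc
        simpa using h2
      have hmem : (⟨t', ht'⟩ : T) ∈ X.subgroupOf T ⊔ C := by
        rw [sup_comm, hC4]
        trivial
      have hle : X.subgroupOf T ≤ normalizer (C : Set T) := by
        rw [normalizer_eq_top_iff.2 hCn]
        exact le_top
      obtain ⟨a, ha, c, hc, hac⟩ := mem_sup_of_le_normalizer hle hmem
      have ht'e : t' = (a : B) * (c : B) := by
        have := congrArg Subtype.val hac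
        simpa using this.symm
      have hcr : (c : B) * r = r * (c : B) := by
        have h1 := h ⟨c, hc, rfl⟩
        exact (mem_centralizer_iff.1 h1 r hr).symm
      rw [mem_subgroupOf] at ha
      have e : ⁅t', r⁆ = (a : B) * (r * (a : B)⁻¹ * r⁻¹) := by
        rw [ht'e, commutatorElement_def]
        calc (a : B) * c * r * ((a : B) * c)⁻¹ * r⁻¹ = (a : B) * (c * r) * (c : B)⁻¹ * (a : B)⁻¹ * r⁻¹ := by group
          _ = (a : B) * (r * c) * (c : B)⁻¹ * (a : B)⁻¹ * r⁻¹ := by rw [hcr]
          _ = _ := by group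
      rw [e]
      exact X.mul_mem ha ((mem_normalizer_iff.1 (I.hSX (I.hRS hr)) _).1 (X.inv_mem ha))
  refine ⟨hXT', ?_⟩
  -- class at most two
  set T' : Subgroup B := ⁅T, T⁆ with hT'
  have hT'le : T' ≤ T := commutator_le_left T T
  have hT'n : T'.Normal := commutator_normal T T
  have hT'c : T' ≤ centralizer (R : Set B) := by
    have hSN : S ≤ normalizer (T' : Set B) := by
      rw [normalizer_eq_top_iff.2 hT'n]
      exact le_top
    rcases I.star hTc hXT hT'le hSN with h | h
    · exfalso
      rw [hXT'] at h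
      apply hFne
      rw [eq_top_iff]
      intro x _
      have h1 : (commutator T).map T.subtype = T' := map_subtype_commutator T
      have h2 := h x.2
      rw [← h1] at h2
      obtain ⟨y, hy, hyx⟩ := h2
      have : y = x := Subtype.ext hyx
      rw [← this]
      exact Cfsg.Agent.Lib.PGroups.Basic.commutator_le_frattini htT hy
    · exact h
  have h1 : ⁅⁅R, T'⁆, T⁆ = ⊥ := by
    have h2 : ⁅R, T'⁆ = ⊥ := by
      rw [commutator_comm, commutator_eq_bot_iff_le_centralizer]
      exact hT'c
    rw [h2, commutator_bot_left]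
  have h2 : ⁅⁅T', T⁆, R⁆ = ⊥ := by
    rw [commutator_eq_bot_iff_le_centralizer]
    exact (commutator_le_left T' T).trans hT'c
  have h3 := commutator_commutator_eq_bot_of_rotate h1 h2
  rw [hTW'] at h3
  exact h3

end Abstract

end Cfsg.Agent.Lib.PIso.Basic
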