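/-
Isolated `p`-minimal subgroups: the case where `X` does not lie in the Fitting subgroup.
-/
import Cfsg.Agent.Lib.PIso.Basic
import Cfsg.Agent.Lib.Solvable.HallRel

set_option autoImplicit false
set_option linter.style.haveILetI false
set_option linter.unusedSectionVars false

namespace Cfsg.Agent.Lib.PIso.Comp

open Subgroup Cfsg Cfsg.Agent.Lib.Core.Basic Cfsg.Agent.Lib.Components.Basic
  Cfsg.Agent.Lib.Coprime.Action Cfsg.Agent.Lib.Transfer.Basic Cfsg.Agent.Lib.PIso.Basic
open scoped commutatorElement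

universe u

variable {B : Type u} [Group B] [Finite B] {p : ℕ} [hp : Fact p.Prime]
variable {S R X L : Subgroup B}

/-- A set of subgroups stable under conjugation by `g` and `g⁻¹` has join normalized by `g`. -/
theorem mem_normalizer_sSup {𝒪 : Set (Subgroup B)} {g : B}
    (h1 : ∀ K ∈ 𝒪, K.map (MulAut.conj g).toMonoidHom ∈ 𝒪)
    (h2 : ∀ K ∈ 𝒪, K.map (MulAut.conj g⁻¹).toMonoidHom ∈ 𝒪) :
    g ∈ normalizer ((sSup 𝒪 : Subgroup B) : Set B) := by
  have key : ∀ (g : B), (∀ K ∈ 𝒪, K.map (MulAut.conj g).toMonoidHom ∈ 𝒪) → ∀ a ∈ sSup 𝒪, g * a * g⁻¹ ∈ sSup 𝒪 := by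
    intro g hg a ha
    have h3 : sSup 𝒪 ≤ (sSup 𝒪).comap (MulAut.conj g).toMonoidHom := by
      refine sSup_le fun K hK => ?_
      rw [← map_le_iff_le_comap]
      exact le_sSup (hg K hK)
    exact h3 ha
  rw [mem_normalizer_iff]
  intro a
  constructor
  · exact key g h1 a
  · intro ha
    have h3 := key g⁻¹ h2 _ ha
    have e : g⁻¹ * (g * a * g⁻¹) * g⁻¹⁻¹ = a := by group
    rwa [e] at h3

theorem commutator_sSup_eq_bot {𝒮₁ 𝒮₂ : Set (Subgroup B)}
    (h : ∀ K₁ ∈ 𝒮₁, ∀ K₂ ∈ 𝒮₂, ⁅K₁, K₂⁆ = ⊥) : ⁅sSup 𝒮₁, sSup 𝒮₂⁆ = ⊥ := by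
  rw [commutator_eq_bot_iff_le_centralizer]
  refine sSup_le fun K₁ hK₁ => ?_
  rw [le_centralizer_iff]
  refine sSup_le fun K₂ hK₂ => ?_
  rw [← le_centralizer_iff, ← commutator_eq_bot_iff_le_centralizer]
  exact h K₁ hK₁ K₂ hK₂

/-- The `S`-orbit of a subgroup. -/
def orbitOf (S K : Subgroup B) : Set (Subgroup B) := {K' | ∃ s ∈ S, K' = K.map (MulAut.conj s).toMonoidHom}

theorem map_conj_mul (a b : B) (K : Subgroup B) :
    (K.map (MulAut.conj b).toMonoidHom).map (MulAut.conj a).toMonoidHom =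
      K.map (MulAut.conj (a * b)).toMonoidHom := by
  rw [Subgroup.map_map]
  congr 1
  ext x
  simp [MulAut.conj_apply, mul_assoc]

theorem map_conj_one (K : Subgroup B) : K.map (MulAut.conj (1 : B)).toMonoidHom = K := by
  ext x
  simp [Subgroup.mem_map]

theorem mem_orbitOf_self (S K : Subgroup B) : K ∈ orbitOf S K := ⟨1, S.one_mem, (map_conj_one K).symm⟩

theorem le_normalizer_sSup_orbit (S K : Subgroup B) :
    S ≤ normalizer ((sSup (orbitOf S K) : Subgroup B) : Set B) := by
  intro s hs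
  apply mem_normalizer_sSup
  · rintro _ ⟨s', hs', rfl⟩
    exact ⟨s * s', S.mul_mem hs hs', map_conj_mul _ _ _⟩
  · rintro _ ⟨s', hs', rfl⟩
    exact ⟨s⁻¹ * s', S.mul_mem (S.inv_mem hs) hs', map_conj_mul _ _ _⟩

/-- `K.map conj g ≤ C(R)` if `K ≤ C(R)` and `g` normalizes `R`. -/
theorem map_conj_le_centralizer {K : Subgroup B} {g : B} (hg : g ∈ normalizer (R : Set B))
    (h : K ≤ centralizer (R : Set B)) : K.map (MulAut.conj g).toMonoidHom ≤ centralizer (R : Set B) := by
  rintro _ ⟨k, hk, rfl⟩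
  rw [mem_centralizer_iff]
  intro r hr
  have h1 : g⁻¹ * r * g ∈ R := by
    have h2 := (mem_normalizer_iff.1 (normalizer (R : Set B) |>.inv_mem hg) r).1 hr
    simpa using h2
  have h2 := mem_centralizer_iff.1 (h hk) _ h1
  show r * (g * k * g⁻¹) = (g * k * g⁻¹) * r
  have h3 : r * (g * k * g⁻¹) = g * ((g⁻¹ * r * g) * k) * g⁻¹ := by group
  rw [h3, h2]
  group

theorem IsoData.exists_A (I : IsoData p S R X L) {T : Subgroup B} (hTn : T.Normal) (hXT : X ≤ T)
    (hTE : T ≤ layer B) (hFL : fittingSubgroup B ≤ L) :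
    ∃ K₀ : Subgroup B, IsComponent K₀ ∧ K₀ ≤ T ∧ ¬ K₀ ≤ centralizer (R : Set B) := by
  by_contra hcon
  push Not at hcon
  apply I.hRX
  set 𝒞₁ : Set (Subgroup B) := {K | IsComponent K ∧ K ≤ T} with h𝒞₁
  set 𝒞₂ : Set (Subgroup B) := {K | IsComponent K ∧ ¬ K ≤ T} with h𝒞₂
  have hunion : layer B = sSup 𝒞₁ ⊔ sSup 𝒞₂ := by
    rw [← sSup_union]
    apply le_antisymm
    · refine sSup_le fun K hK => le_sSup ?_
      by_cases h : K ≤ T
      · exact Or.inl ⟨hK, h⟩
      · exact Or.inr ⟨hK, h⟩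
    · refine sSup_le fun K hK => ?_
      rcases hK with hK | hK
      · exact le_sSup hK.1
      · exact le_sSup hK.1
  have h12 : ⁅sSup 𝒞₁, sSup 𝒞₂⁆ = ⊥ := by
    apply commutator_sSup_eq_bot
    intro K₁ hK₁ K₂ hK₂
    rcases component_eq_or_commutator_eq_bot hK₁.1 hK₂.1 with h | h
    · exact absurd (h ▸ hK₁.2) hK₂.2
    · exact h
  have hT2 : ⁅T, sSup 𝒞₂⁆ = ⊥ := by
    rw [commutator_comm, commutator_eq_bot_iff_le_centralizer]
    refine sSup_le fun K hK => ?_
    rw [← commutator_eq_bot_iff_le_centralizer]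
    rcases component_le_or_commutator_eq_bot hK.1 hTn.isSubnormal with h | h
    · exact absurd h hK.2
    · exact h
  have h1le : sSup 𝒞₁ ≤ T := sSup_le fun K hK => hK.2
  have h1cent : sSup 𝒞₁ ≤ centralizer (R : Set B) := sSup_le fun K hK => hcon K hK.1 hK.2
  have hFcent : fittingSubgroup B ≤ centralizer (R : Set B) := by
    rw [le_centralizer_iff]
    exact I.cent_of_normal_le fittingSubgroup_normal_aux hFL
  intro x hx
  have hxE : x ∈ sSup 𝒞₁ ⊔ sSup 𝒞₂ := by
    rw [← hunion]
    exact hTE (hXT hx)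
  obtain ⟨a, ha, b, hb, rfl⟩ := mem_sup_of_commutator_eq_bot h12 hxE
  have hbT : b ∈ T := by
    have h2 := T.mul_mem (T.inv_mem (h1le ha)) (hXT hx)
    simpa using h2
  have hbE : b ∈ layer B := by
    rw [hunion]
    exact (le_sup_right : sSup 𝒞₂ ≤ _) hb
  have hbc : b ∈ centralizer (layer B : Set B) := by
    rw [mem_centralizer_iff]
    intro k hk
    rw [SetLike.mem_coe, hunion] at hk
    obtain ⟨k₁, hk₁, k₂, hk₂, rfl⟩ := mem_sup_of_commutator_eq_bot h12 hk
    have h3 : k₁ * b = b * k₁ := by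
      have h4 := commutator_mem_commutator hk₁ hb
      rw [h12, mem_bot, commutatorElement_eq_one_iff_mul_comm] at h4
      exact h4
    have h4 : b * k₂ = k₂ * b := by
      have h5 := commutator_mem_commutator hbT hk₂
      rw [hT2, mem_bot, commutatorElement_eq_one_iff_mul_comm] at h5
      exact h5
    rw [mul_assoc, ← h4, ← mul_assoc, h3, mul_assoc]
  have hbF : b ∈ fittingSubgroup B := layer_inf_centralizer_le_fitting ⟨hbE, hbc⟩
  exact (centralizer (R : Set B)).mul_mem (h1cent ha) (hFcent hbF)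

theorem IsoData.cent_of_comp_le (I : IsoData p S R X L) {K : Subgroup B} (hK : IsComponent K) (hKL : K ≤ L) :
    K ≤ centralizer (R : Set B) := by
  have hRp : IsPGroup p R := I.hSp.to_le I.hRS
  rcases component_le_or_commutator_eq_bot_of_le_normalizer hK (hKL.trans I.hLR) with h | h
  · exfalso
    haveI : Group.IsNilpotent R := hRp.isNilpotent
    exact quasisimple_not_nilpotent hK.2 (nilpotent_of_subgroup_le h inferInstance)
  · exact commutator_eq_bot_iff_le_centralizer.1 h

/-- No primes: the case of a `p'`-group is impossible. -/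
theorem IsoData.dvd_card (I : IsoData p S R X L) {T : Subgroup B} (hTn : T.Normal) (hXT : X ≤ T)
    (hTc : (Nat.card T).Coprime p) (hTsup : T = sSup {K : Subgroup B | IsComponent K ∧ K ≤ T}) : False := by
  classical
  have hX1 := I.ne_bot
  have hRp : IsPGroup p R := I.hSp.to_le I.hRS
  have hST : S ≤ normalizer (T : Set B) := by
    rw [normalizer_eq_top_iff.2 hTn]
    exact le_top
  have hRT : R ≤ normalizer (T : Set B) := I.hRS.trans hST
  have hSc : (Nat.card S).Coprime (Nat.card T) := by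
    obtain ⟨k, hk⟩ := IsPGroup.iff_card.1 I.hSp
    rw [hk]
    exact (hTc.symm.pow_left k)
  have hSsol : Group.IsSolvable S ∨ Group.IsSolvable T := by
    left
    haveI : Group.IsNilpotent S := I.hSp.isNilpotent
    infer_instance
  -- the centralizer as a subgroup of `T`
  set H : Subgroup T := (centralizer (R : Set B)).subgroupOf T with hH
  have hsyl : ∀ (q : ℕ) [Fact q.Prime] (Q : Subgroup B), IsSylowIn q Q T → Q ≤ centralizer (R : Set B) →
      ¬ q ∣ H.index := by
    intro q _ Q hQ hQc hd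
    obtain ⟨P, hP⟩ := exists_sylow_of_isSylowIn hQ
    have h1 : (P : Subgroup T) ≤ H := by
      intro x hx
      rw [hH, mem_subgroupOf]
      apply hQc
      rw [← hP]
      exact ⟨x, hx, rfl⟩
    exact P.not_dvd_index (hd.trans (index_dvd_of_le h1))
  by_cases hr : ∃ (r : ℕ) (_ : r.Prime) (Q : Subgroup B), IsSylowIn r Q T ∧ S ≤ normalizer (Q : Set B) ∧ X ≤ Q
  · obtain ⟨r, hrp, Q, hQ, hSQ, hXQ⟩ := hr
    haveI : Fact r.Prime := ⟨hrp⟩
    -- the index of `H` is a power of `r`
    have hind : ∀ q : ℕ, q.Prime → q ∣ H.index → q = r := by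
      intro q hq hd
      by_contra hne
      haveI : Fact q.Prime := ⟨hq⟩
      obtain ⟨Q', hQ', hSQ'⟩ := exists_invariant_sylowIn (p := q) hST hSc hSsol
      rcases I.star hTc hXT hQ'.1 hSQ' with h | h
      · -- `X` is both an `r`-group and a `q`-group
        apply hX1
        rw [eq_bot_iff]
        intro x hx
        obtain ⟨a, ha⟩ := hQ.2.1 ⟨x, hXQ hx⟩
        obtain ⟨b, hb⟩ := hQ'.2.1 ⟨x, h hx⟩
        have ha' : x ^ r ^ a = 1 := congrArg Subtype.val ha
        have hb' : x ^ q ^ b = 1 := congrArg Subtype.val hb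
        have h1 : orderOf x ∣ r ^ a := orderOf_dvd_of_pow_eq_one ha'
        have h2 : orderOf x ∣ q ^ b := orderOf_dvd_of_pow_eq_one hb'
        have h3 : Nat.Coprime (r ^ a) (q ^ b) :=
          Nat.Coprime.pow _ _ ((Nat.coprime_primes hrp hq).2 (Ne.symm hne))
        have h4 := Nat.eq_one_of_dvd_coprimes h3 h1 h2
        rw [mem_bot]
        exact orderOf_eq_one_iff.1 h4
      · exact hsyl q Q' hQ' h hd
    have hQind : (Q.subgroupOf T).index = Q.relIndex T := rfl
    have hcop : H.index.Coprime (Q.subgroupOf T).index := by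
      apply Nat.coprime_of_dvd
      intro q hq hd1 hd2
      have := hind q hq hd1
      subst this
      rw [hQind] at hd2
      exact hQ.2.2 hd2
    -- factorization
    have hfac : ∀ x ∈ T, ∃ a ∈ Q, ∃ c ∈ centralizer (R : Set B), x = a * c := by
      intro x hx
      obtain ⟨c, hc, a, ha, e⟩ := Cfsg.Agent.Lib.Solvable.HallRel.exists_mul_of_coprime_index H (Q.subgroupOf T) hcop
        (⟨x, hx⟩ : T)⁻¹
      refine ⟨(a : B)⁻¹, Q.inv_mem ha, (c : B)⁻¹, (centralizer (R : Set B)).inv_mem hc, ?_⟩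
      have h1 := congrArg Subtype.val e
      have h2 : x⁻¹ = (c : B) * a := by simpa using h1
      rw [← mul_inv_rev, ← h2, inv_inv]
    set W : Subgroup B := ⁅T, R⁆ with hW
    have hWQ : W ≤ Q := by
      rw [hW, commutator_le]
      intro x hx r' hr'
      obtain ⟨a, ha, c, hc, rfl⟩ := hfac x hx
      have hcr : r' * c = c * r' := mem_centralizer_iff.1 hc r' hr'
      have e : ⁅a * c, r'⁆ = a * (r' * a⁻¹ * r'⁻¹) := by
        rw [commutatorElement_def]
        calc a * c * r' * (a * c)⁻¹ * r'⁻¹ = a * (c * r') * c⁻¹ * a⁻¹ * r'⁻¹ := by group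
          _ = a * (r' * c) * c⁻¹ * a⁻¹ * r'⁻¹ := by rw [hcr]
          _ = _ := by group
      rw [e]
      exact Q.mul_mem ha ((mem_normalizer_iff.1 (hSQ (I.hRS hr')) _).1 (Q.inv_mem ha))
    have hWnil : Group.IsNilpotent W := by
      have h1 : IsPGroup r W := hQ.2.1.to_le hWQ
      exact h1.isNilpotent
    have hWT : W ≤ T := commutator_le_of_le_normalizer hRT
    have hWsub : W.IsSubnormal := by
      refine IsSubnormal.step _ _ hWT hTn.isSubnormal ?_
      constructor
      intro n hn g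
      rw [mem_subgroupOf] at hn ⊢
      exact (mem_normalizer_iff.1 (le_normalizer_commutator_left T R g.2) _).1 hn
    have hTW : ⁅T, W⁆ = ⊥ := by
      rw [commutator_eq_bot_iff_le_centralizer]
      rw [hTsup]
      refine sSup_le fun K hK => ?_
      rw [← commutator_eq_bot_iff_le_centralizer]
      rcases component_le_or_commutator_eq_bot hK.1 hWsub with h | h
      · exfalso
        exact quasisimple_not_nilpotent hK.1.2 (nilpotent_of_subgroup_le h hWnil)
      · exact h
    have hperf : ⁅T, T⁆ = T := by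
      apply le_antisymm (commutator_le_left T T)
      conv_lhs => rw [hTsup]
      refine sSup_le fun K hK => ?_
      rw [← commutator_self_of_quasisimple hK.1.2]
      exact commutator_mono hK.2 hK.2
    have h1 : ⁅⁅T, R⁆, T⁆ = ⊥ := by
      rw [commutator_comm]
      exact hTW
    have h2 := commutator_eq_bot_of_perfect hperf h1
    apply I.hRX
    exact hXT.trans (commutator_eq_bot_iff_le_centralizer.1 h2)
  · -- all invariant Sylow subgroups are centralized
    push Not at hr
    apply I.hRX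
    have h1 : H = ⊤ := by
      apply eq_top_of_forall_sylow_le
      intro q _
      obtain ⟨Q', hQ', hSQ'⟩ := exists_invariant_sylowIn (p := q) hST hSc hSsol
      obtain ⟨P, hP⟩ := exists_sylow_of_isSylowIn hQ'
      refine ⟨P, ?_⟩
      rcases I.star hTc hXT hQ'.1 hSQ' with h | h
      · exact absurd h (hr q Fact.out Q' hQ' hSQ')
      · intro x hx
        rw [hH, mem_subgroupOf]
        apply h
        rw [← hP]
        exact ⟨x, hx, rfl⟩
    intro x hx
    have h2 : (⟨x, hXT hx⟩ : T) ∈ H := by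
      rw [h1]
      trivial
    exact h2

/-- The structure of `T` when `X` does not lie in `F(B)`. -/
theorem IsoData.main_comp (I : IsoData p S R X L) {T : Subgroup B} (hT : T = normalClosure (X : Set B))
    (hXF : ¬ X ≤ fittingSubgroup B) :
    T = sSup {K : Subgroup B | IsComponent K ∧ K ≤ T} ∧
    (∀ K₁ K₂ : Subgroup B, IsComponent K₁ → K₁ ≤ T → IsComponent K₂ → K₂ ≤ T →
      ∃ s ∈ S, K₂ = K₁.map (MulAut.conj s).toMonoidHom) ∧ p ∣ Nat.card T := by
  classical
  have hTn : T.Normal := hT ▸ normalClosure_normal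
  have hXT : X ≤ T := by rw [hT]; exact subset_normalClosure
  have hnormalizer : ∀ {N : Subgroup B}, N.Normal → S ≤ normalizer (N : Set B) := by
    intro N hN
    rw [normalizer_eq_top_iff.2 hN]
    exact le_top
  have hFL : fittingSubgroup B ≤ L := by
    rcases I.hdich (fittingSubgroup B ⊔ S) le_sup_right with h | h
    · exact absurd (I.hXgen _ (hnormalizer fittingSubgroup_normal_aux) h) hXF
    · exact le_sup_left.trans h
  have hXE : X ≤ layer B := by
    rcases I.hdich (layer B ⊔ S) le_sup_right with h | h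
    · exact I.hXgen _ (hnormalizer layer_normal) h
    · exact absurd (sup_le (le_sup_left.trans h) hFL) I.not_gF_le
  have hTE : T ≤ layer B := by
    rw [hT]
    exact normalClosure_le_normal (by exact_mod_cast hXE)
  have hLn : ∀ g ∈ S, g ∈ normalizer (R : Set B) := fun g hg => I.hLR (I.hSL hg)
  set 𝒜 : Set (Subgroup B) := {K | IsComponent K ∧ K ≤ T ∧ ¬ K ≤ centralizer (R : Set B)} with h𝒜
  have hconj𝒜 : ∀ K ∈ 𝒜, ∀ g : B, g ∈ L → K.map (MulAut.conj g).toMonoidHom ∈ 𝒜 := by
    intro K hK g hg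
    refine ⟨isComponent_conj g hK.1, ?_, ?_⟩
    · rintro _ ⟨k, hk, rfl⟩
      exact hTn.conj_mem k (hK.2.1 hk) g
    · intro h
      apply hK.2.2
      have h1 := map_conj_le_centralizer (I.hLR (L.inv_mem hg)) h
      rw [map_conj_mul, inv_mul_cancel, map_conj_one] at h1
      exact h1
  have horb : ∀ K ∈ 𝒜, orbitOf S K ⊆ 𝒜 := by
    rintro K hK _ ⟨s, hs, rfl⟩
    exact hconj𝒜 K hK s (I.hSL hs)
  have hXorb : ∀ K ∈ 𝒜, X ≤ sSup (orbitOf S K) := by
    intro K hK
    rcases I.hdich (sSup (orbitOf S K) ⊔ S) le_sup_right with h | h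
    · exact I.hXgen _ (le_normalizer_sSup_orbit S K) h
    · exfalso
      have h1 : K ≤ L := (le_sSup (mem_orbitOf_self S K)).trans (le_sup_left.trans h)
      exact hK.2.2 (IsoData.cent_of_comp_le I hK.1 h1)
  have huniq : ∀ K₁ ∈ 𝒜, ∀ K₂ ∈ 𝒜, K₂ ∈ orbitOf S K₁ := by
    intro K₁ hK₁ K₂ hK₂
    by_contra hne
    have hdis : ∀ K' ∈ orbitOf S K₁, ∀ K'' ∈ orbitOf S K₂, K' ≠ K'' := by
      rintro _ ⟨s, hs, rfl⟩ _ ⟨s', hs', rfl⟩ he
      apply hne
      refine ⟨s'⁻¹ * s, S.mul_mem (S.inv_mem hs') hs, ?_⟩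
      have h1 := congrArg (Subgroup.map (MulAut.conj s'⁻¹).toMonoidHom) he
      rw [map_conj_mul, map_conj_mul, inv_mul_cancel, map_conj_one] at h1
      exact h1.symm
    have h12 : ⁅sSup (orbitOf S K₁), sSup (orbitOf S K₂)⁆ = ⊥ := by
      apply commutator_sSup_eq_bot
      intro K' hK' K'' hK''
      rcases component_eq_or_commutator_eq_bot (horb K₁ hK₁ hK').1 (horb K₂ hK₂ hK'').1 with h | h
      · exact absurd h (hdis K' hK' K'' hK'')
      · exact h
    apply hXF
    intro x hx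
    apply layer_inf_centralizer_le_fitting
    refine ⟨hXE hx, mem_centralizer_iff.2 ?_⟩
    have hx1 := hXorb K₁ hK₁ hx
    have hx2 := hXorb K₂ hK₂ hx
    -- `x` commutes with every component
    have hcomm : ∀ K : Subgroup B, IsComponent K → K ≤ centralizer ({x} : Set B) := by
      intro K hK
      by_cases hKo : K ∈ orbitOf S K₁
      · intro k hk
        rw [mem_centralizer_singleton_iff]
        have h3 := commutator_mem_commutator (le_sSup hKo hk) hx2
        rw [h12, mem_bot, commutatorElement_eq_one_iff_mul_comm] at h3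
        exact h3
      · have h3 : ⁅({K} : Set (Subgroup B)) |> sSup, sSup (orbitOf S K₁)⁆ = ⊥ := by
          apply commutator_sSup_eq_bot
          rintro _ rfl K' hK'
          rcases component_eq_or_commutator_eq_bot hK (horb K₁ hK₁ hK').1 with h | h
          · exact absurd (h ▸ hK') hKo
          · exact h
        rw [sSup_singleton] at h3
        intro k hk
        rw [mem_centralizer_singleton_iff]
        have h4 := commutator_mem_commutator hk hx1
        rw [h3, mem_bot, commutatorElement_eq_one_iff_mul_comm] at h4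
        exact h4
    have h5 : layer B ≤ centralizer ({x} : Set B) := sSup_le fun K hK => hcomm K hK
    intro k hk
    have h6 := mem_centralizer_singleton_iff.1 (h5 hk)
    exact h6
  obtain ⟨K₀, hK₀, hK₀T, hK₀c⟩ := IsoData.exists_A I hTn hXT hTE hFL
  have hK₀𝒜 : K₀ ∈ 𝒜 := ⟨hK₀, hK₀T, hK₀c⟩
  have hTA : T ≤ sSup 𝒜 := by
    have hn : (sSup 𝒜).Normal := by
      rw [← normalizer_eq_top_iff, eq_top_iff, ← I.hgen]
      refine sup_le ?_ ?_
      · exact ((hXorb K₀ hK₀𝒜).trans (sSup_le_sSup (horb K₀ hK₀𝒜))).trans le_normalizer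
      · intro l hl
        exact mem_normalizer_sSup (fun K hK => hconj𝒜 K hK l hl) (fun K hK => hconj𝒜 K hK l⁻¹ (L.inv_mem hl))
    rw [hT]
    refine normalClosure_le_normal ?_
    have h1 := (hXorb K₀ hK₀𝒜).trans (sSup_le_sSup (horb K₀ hK₀𝒜))
    exact_mod_cast h1
  have hall : ∀ K : Subgroup B, IsComponent K → K ≤ T → K ∈ 𝒜 := by
    intro K hK hKT
    by_contra hne
    have hKc : K ≤ centralizer (R : Set B) := by
      by_contra hc
      exact hne ⟨hK, hKT, hc⟩
    have h1 : ⁅K, T⁆ = ⊥ := by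
      rw [commutator_eq_bot_iff_le_centralizer]
      refine le_centralizer_iff.1 ?_
      refine hTA.trans (sSup_le fun K' hK' => ?_)
      rw [le_centralizer_iff, ← commutator_eq_bot_iff_le_centralizer]
      rcases component_eq_or_commutator_eq_bot hK hK'.1 with h | h
      · exact absurd (h ▸ hKc) hK'.2.2
      · exact h
    have h2 : ⁅K, K⁆ ≤ ⁅K, T⁆ := commutator_mono le_rfl hKT
    rw [h1, commutator_self_of_quasisimple hK.2, le_bot_iff] at h2
    exact ne_bot_of_quasisimple hK.2 h2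
  have hsup : T = sSup {K : Subgroup B | IsComponent K ∧ K ≤ T} := by
    apply le_antisymm
    · exact hTA.trans (sSup_le_sSup fun K hK => ⟨hK.1, hK.2.1⟩)
    · exact sSup_le fun K hK => hK.2
  refine ⟨hsup, ?_, ?_⟩
  · intro K₁ K₂ h₁ h₁T h₂ h₂T
    obtain ⟨s, hs, e⟩ := huniq K₁ (hall K₁ h₁ h₁T) K₂ (hall K₂ h₂ h₂T)
    exact ⟨s, hs, e⟩
  · by_contra hnd
    exact IsoData.dvd_card I hTn hXT ((hp.out.coprime_iff_not_dvd.2 hnd).symm) hsup

end Cfsg.Agent.Lib.PIso.Comp
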