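/-
Isolated `p`-minimal subgroups: from the group `G` to the abstract setting in `G / O_p(G)`.
-/
import Cfsg.Agent.Lib.PIso.Basic

set_option autoImplicit false
set_option linter.style.haveILetI false
set_option linter.unusedSectionVars false

namespace Cfsg.Agent.Lib.PIso.Local

open Subgroup Cfsg Cfsg.Agent.Lib.Core.Basic Cfsg.Agent.Lib.Components.Basic
  Cfsg.Agent.Lib.Coprime.Action Cfsg.Agent.Lib.Transfer.Basic Cfsg.Agent.Lib.PIso.Basic
  Cfsg.Agent.Lib.PReduced.McBride Cfsg.Agent.Lib.PReduced.RelNorm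
open scoped commutatorElement

universe u

section Local

variable {G : Type u} [Group G] [Finite G] {p : ℕ} [hp : Fact p.Prime]

/-- `p`-minimality is preserved by isomorphisms. -/
theorem isPMinimal_of_mulEquiv' {X Y : Type*} [Group X] [Group Y] [Finite X]
    (hX : Cfsg.IsPMinimal p X) (e : X ≃* Y) : Cfsg.IsPMinimal p Y := by
  classical
  intro S
  have hinj : Function.Injective (e.toMonoidHom : X →* Y) := e.injective
  have hle : (S : Subgroup Y) ≤ (e.toMonoidHom : X →* Y).range := by
    rw [MonoidHom.range_eq_top.2 e.surjective]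
    exact le_top
  let S' : Sylow p X := S.comapOfInjective (e.toMonoidHom : X →* Y) hinj hle
  have hS' : (S' : Subgroup X) = (S : Subgroup Y).comap (e.toMonoidHom : X →* Y) := rfl
  have hmap : (S' : Subgroup X).map (e.toMonoidHom : X →* Y) = S := by
    rw [hS', Subgroup.map_comap_eq_self hle]
  obtain ⟨h1, M, ⟨hM, hSM⟩, huniq⟩ := hX S'
  refine ⟨?_, e.mapSubgroup M, ⟨?_, ?_⟩, ?_⟩
  · intro hn
    apply h1
    rw [hS']
    exact hn.comap _
  · exact (OrderIso.isCoatom_iff e.mapSubgroup M).2 hM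
  · rw [← hmap]
    exact Subgroup.map_mono hSM
  · rintro M' ⟨hM', hSM'⟩
    have h2 : M' = e.mapSubgroup (e.mapSubgroup.symm M') := (OrderIso.apply_symm_apply e.mapSubgroup M').symm
    rw [h2]
    congr 1
    apply huniq
    refine ⟨(OrderIso.isCoatom_iff e.mapSubgroup _).1 (by rw [← h2]; exact hM'), ?_⟩
    have h3 := (OrderIso.le_iff_le e.mapSubgroup (x := (S' : Subgroup X)) (y := e.mapSubgroup.symm M'))
    rw [← h3]
    simp only [OrderIso.apply_symm_apply]
    have : e.mapSubgroup (S' : Subgroup X) = S := hmap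
    rw [this]
    exact hSM'

/-- Every overgroup of `S` not containing `P` lies in `L`. -/
theorem le_L_of_not_le (S : Sylow p G) (P L : Subgroup G)
    (hL : L = normalizer ((S : Subgroup G) : Set G) ⊔
      ⨆ P' : {P' : Subgroup G // (S : Subgroup G) ≤ P' ∧ IsPMinimal p ↥P' ∧ P' ≠ P}, (P' : Subgroup G))
    (H : Subgroup G) (hSH : (S : Subgroup G) ≤ H) (hPH : ¬ P ≤ H) : H ≤ L := by
  classical
  let S' : Sylow p H := S.subtype hSH
  have hS' : (S' : Subgroup H) = (S : Subgroup G).subgroupOf H := Sylow.coe_subtype _ _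
  have hNL : normalizer ((S : Subgroup G) : Set G) ≤ L := by
    rw [hL]
    exact le_sup_left
  have hSL : (S : Subgroup G) ≤ L := le_normalizer.trans hNL
  have h1 : pElementClosure p (⊤ : Subgroup H) ≤ L.subgroupOf H := by
    refine le_of_pElementClosure_eq S' (L.subgroupOf H) ?_ ?_ _
      (sylow_le_pElementClosure S' le_top) (pElementClosure_idem ⊤)
    · rw [hS']
      intro x hx
      exact hSL hx
    · intro Q hSQ hQ
      have hQ' : IsPMinimal p ↥(Q.map H.subtype) :=
        isPMinimal_of_mulEquiv' hQ (Q.equivMapOfInjective H.subtype H.subtype_injective)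
      have hne : Q.map H.subtype ≠ P := by
        rintro rfl
        exact hPH (map_subtype_le Q)
      have hSQ' : (S : Subgroup G) ≤ Q.map H.subtype := by
        intro x hx
        refine ⟨⟨x, hSH hx⟩, hSQ ?_, rfl⟩
        rw [hS']
        exact hx
      intro x hx
      rw [mem_subgroupOf, hL]
      refine (le_sup_right : _ ≤ normalizer ((S : Subgroup G) : Set G) ⊔ _) ?_
      exact (le_iSup (fun P' : {P' : Subgroup G // (S : Subgroup G) ≤ P' ∧ IsPMinimal p ↥P' ∧ P' ≠ P} =>
        (P' : Subgroup G)) ⟨_, hSQ', hQ', hne⟩) ⟨x, hx, rfl⟩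
  intro h hh
  obtain ⟨x, hx, y, hy, e⟩ := exists_mul_pElementClosure_normalizer S' ⟨h, hh⟩
  have hmem : ∀ z : H, z ∈ ((S' : Subgroup H) : Set H) ↔ (z : G) ∈ (S : Subgroup G) := by
    intro z
    show z ∈ (S' : Subgroup H) ↔ _
    rw [hS', mem_subgroupOf]
  have hyN : (y : G) ∈ normalizer ((S : Subgroup G) : Set G) := by
    rw [mem_normalizer_iff]
    intro a
    constructor
    · intro ha
      have h2 := (mem_normalizer_iff.1 hy ⟨a, hSH ha⟩).1 ((hmem _).2 ha)
      exact (hmem _).1 h2
    · intro ha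
      have haH : a ∈ H := by
        have h2 := H.mul_mem (H.mul_mem (H.inv_mem y.2) (hSH ha)) y.2
        simpa [mul_assoc] using h2
      have h2 := (mem_normalizer_iff.1 hy ⟨a, haH⟩).2 ((hmem _).2 ha)
      exact (hmem _).1 h2
  have he : h = x * y := (congrArg Subtype.val e)
  rw [he]
  exact L.mul_mem (h1 hx) (hNL hyN)

/-- `O^p(P)`, as a subgroup of `G`. -/
abbrev pRes (p : ℕ) (P : Subgroup G) : Subgroup G := (pResidual p P).map P.subtype

/-- `O_p(K)`, as a subgroup of `G`. -/
abbrev pCoreIn (p : ℕ) (K : Subgroup G) : Subgroup G := (pCore p K).map K.subtype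

theorem pRes_le (P : Subgroup G) : pRes p P ≤ P := map_subtype_le _

theorem pRes_sup (S : Sylow p G) {P : Subgroup G} (hSP : (S : Subgroup G) ≤ P) :
    pRes p P ⊔ (S : Subgroup G) = P := by
  classical
  let S' : Sylow p P := S.subtype hSP
  have hS' : (S' : Subgroup P) = (S : Subgroup G).subgroupOf P := Sylow.coe_subtype _ _
  have h1 := sylow_sup_pResidual S'
  have h2 := congrArg (Subgroup.map P.subtype) h1
  rw [Subgroup.map_sup, ← MonoidHom.range_eq_map, Subgroup.range_subtype, hS',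
    Subgroup.map_subgroupOf_eq_of_le hSP, sup_comm] at h2
  exact h2

theorem le_normalizer_pRes {P : Subgroup G} : P ≤ normalizer (pRes p P : Set G) := by
  intro x hx
  rw [mem_normalizer_iff]
  intro a
  have hn : (pResidual p P).Normal := inferInstance
  constructor
  · rintro ⟨b, hb, rfl⟩
    exact ⟨_, hn.conj_mem b hb ⟨x, hx⟩, rfl⟩
  · rintro ⟨b, hb, hba⟩
    have h1 := hn.conj_mem b hb (⟨x, hx⟩ : P)⁻¹
    refine ⟨_, h1, ?_⟩
    have h2 : (b : G) = x * a * x⁻¹ := hba
    show x⁻¹ * (b : G) * x⁻¹⁻¹ = a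
    rw [h2]
    group

theorem le_pCore_of_normal_in {K A : Subgroup G} (hAK : A ≤ K) (hA : IsPGroup p A)
    (hn : K ≤ normalizer (A : Set G)) : A ≤ pCoreIn p K := by
  intro a ha
  have h1 : (A.subgroupOf K).Normal := by
    constructor
    intro x hx g
    rw [mem_subgroupOf] at hx ⊢
    exact (mem_normalizer_iff.1 (hn g.2) _).1 hx
  have h2 : A.subgroupOf K ≤ pCore p K :=
    le_pCore h1 (hA.comap_subtype (K := K))
  exact ⟨⟨a, hAK ha⟩, h2 ha, rfl⟩

variable (S : Sylow p G) (P L : Subgroup G) (hSP : (S : Subgroup G) ≤ P)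
  (hL : L = normalizer ((S : Subgroup G) : Set G) ⊔
      ⨆ P' : {P' : Subgroup G // (S : Subgroup G) ≤ P' ∧ IsPMinimal p ↥P' ∧ P' ≠ P}, (P' : Subgroup G))

include hL in
theorem sylow_le_L : (S : Subgroup G) ≤ L := by
  rw [hL]
  exact le_normalizer.trans le_sup_left

include hL in
theorem dichG (H : Subgroup G) (hSH : (S : Subgroup G) ≤ H) : pRes p P ≤ H ∨ H ≤ L := by
  by_cases h : P ≤ H
  · exact Or.inl ((pRes_le P).trans h)
  · exact Or.inr (le_L_of_not_le S P L hL H hSH h)

include hL hSP in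
theorem genG : pRes p P ⊔ L = ⊤ := by
  classical
  have hSL := sylow_le_L S P L hL
  have hNL : normalizer ((S : Subgroup G) : Set G) ≤ L := by
    rw [hL]
    exact le_sup_left
  have hPle : P ≤ pRes p P ⊔ L := by
    conv_lhs => rw [← pRes_sup S hSP]
    exact sup_le le_sup_left (hSL.trans le_sup_right)
  have h1 : pElementClosure p (⊤ : Subgroup G) ≤ pRes p P ⊔ L := by
    rw [← mcBride S]
    refine sup_le (hSL.trans le_sup_right) (iSup_le fun Q => ?_)
    by_cases hQ : (Q : Subgroup G) = P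
    · rw [hQ]
      exact hPle
    · refine le_trans ?_ le_sup_right
      rw [hL]
      refine le_trans ?_ le_sup_right
      exact le_iSup (fun P' : {P' : Subgroup G // (S : Subgroup G) ≤ P' ∧ IsPMinimal p ↥P' ∧ P' ≠ P} =>
        (P' : Subgroup G)) ⟨Q, Q.2.1, Q.2.2, hQ⟩
  rw [eq_top_iff]
  intro g _
  obtain ⟨x, hx, y, hy, rfl⟩ := exists_mul_pElementClosure_normalizer S g
  exact mul_mem (h1 hx) ((le_sup_right : L ≤ pRes p P ⊔ L) (hNL hy))

include hL in
theorem R_le_S : pCoreIn p L ≤ (S : Subgroup G) := by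
  classical
  have hSL := sylow_le_L S P L hL
  let S' : Sylow p L := S.subtype hSL
  have hS' : (S' : Subgroup L) = (S : Subgroup G).subgroupOf L := Sylow.coe_subtype _ _
  rintro _ ⟨x, hx, rfl⟩
  have h1 : x ∈ (S' : Subgroup L) := pCore_le_sylow S' hx
  rw [hS'] at h1
  exact h1

theorem L_le_normalizer_R {L : Subgroup G} : L ≤ normalizer (pCoreIn p L : Set G) := by
  intro x hx
  rw [mem_normalizer_iff]
  intro a
  have hn : (pCore p L).Normal := pCore_normal p L
  constructor
  · rintro ⟨b, hb, rfl⟩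
    exact ⟨_, hn.conj_mem b hb ⟨x, hx⟩, rfl⟩
  · rintro ⟨b, hb, hba⟩
    have h1 := hn.conj_mem b hb (⟨x, hx⟩ : L)⁻¹
    refine ⟨_, h1, ?_⟩
    have h2 : (b : G) = x * a * x⁻¹ := hba
    show x⁻¹ * (b : G) * x⁻¹⁻¹ = a
    rw [h2]
    group

/-- Image of a normalizer under a homomorphism. -/
theorem map_mem_normalizer {Q : Type*} [Group Q] (f : G →* Q) {A : Subgroup G} {x : G}
    (hx : x ∈ normalizer (A : Set G)) (hf : Function.Surjective f) :
    f x ∈ normalizer ((A.map f : Subgroup Q) : Set Q) := by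
  rw [mem_normalizer_iff]
  intro a
  constructor
  · rintro ⟨b, hb, rfl⟩
    exact ⟨x * b * x⁻¹, (mem_normalizer_iff.1 hx b).1 hb, by simp⟩
  · rintro ⟨b, hb, hba⟩
    refine ⟨x⁻¹ * b * x, ?_, ?_⟩
    · have e : x * (x⁻¹ * b * x) * x⁻¹ = b := by group
      exact (mem_normalizer_iff.1 hx (x⁻¹ * b * x)).2 (by rw [e]; exact hb)
    · simp only [map_mul, map_inv]
      rw [hba]
      group

theorem mem_of_coprime_of_sup {B : Type*} [Group B] [Finite B] {N T : Subgroup B}
    (hTN : T ≤ normalizer (N : Set B))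
    (hT : IsPGroup p T) {y : B} (hy : y ∈ N ⊔ T) (hc : (orderOf y).Coprime p) : y ∈ N := by
  rw [sup_comm] at hy
  obtain ⟨s, hs, n, hn, rfl⟩ := mem_sup_of_le_normalizer hTN hy
  have h1 : ∀ m : ℕ, ∃ n' ∈ N, (s * n) ^ m = s ^ m * n' := by
    intro m
    induction m with
    | zero => exact ⟨1, N.one_mem, by simp⟩
    | succ m ih =>
      obtain ⟨n', hn', he⟩ := ih
      refine ⟨(s⁻¹ * n' * s) * n, N.mul_mem ?_ hn, ?_⟩
      · have h2 := (mem_normalizer_iff.1 (hTN (T.inv_mem hs)) n').1 hn'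
        simpa using h2
      · rw [pow_succ, he, pow_succ]
        group
  obtain ⟨k, hk⟩ := hT ⟨s, hs⟩
  have hsk : s ^ p ^ k = 1 := congrArg Subtype.val hk
  obtain ⟨n', hn', he⟩ := h1 (p ^ k)
  rw [hsk, one_mul] at he
  obtain ⟨m, hm⟩ := exists_pow_eq_self_of_coprime (x := s * n) (n := p ^ k) (hc.symm.pow_left k)
  rw [← hm, he]
  exact N.pow_mem hn' m

/-- The main bridge. -/
theorem isoData_quot (hiso : ¬ pCoreIn p L ≤ pCoreIn p P) (hSP : (S : Subgroup G) ≤ P)
    (hL : L = normalizer ((S : Subgroup G) : Set G) ⊔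
      ⨆ P' : {P' : Subgroup G // (S : Subgroup G) ≤ P' ∧ IsPMinimal p ↥P' ∧ P' ≠ P}, (P' : Subgroup G)) :
    IsoData p ((S : Subgroup G).map (QuotientGroup.mk' (pCore p G)))
      ((pCoreIn p L).map (QuotientGroup.mk' (pCore p G)))
      ((pRes p P).map (QuotientGroup.mk' (pCore p G)))
      (L.map (QuotientGroup.mk' (pCore p G))) := by
  classical
  set D := pCore p G with hD
  haveI hDn : D.Normal := pCore_normal p G
  set π := QuotientGroup.mk' D with hπ
  have hπs : Function.Surjective π := QuotientGroup.mk'_surjective D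
  have hSL := sylow_le_L S P L hL
  have hRS := R_le_S S P L hL
  have hkerπ : π.ker = D := QuotientGroup.ker_mk' D
  have hDS : D ≤ (S : Subgroup G) := pCore_le_sylow S
  refine ⟨S.isPGroup'.map π, map_mono hRS, map_mono hSL, ?_, ?_, ?_, ?_, ?_, pCore_quotient_eq_bot, ?_⟩
  · rintro _ ⟨x, hx, rfl⟩
    exact map_mem_normalizer π (L_le_normalizer_R hx) hπs
  · rintro _ ⟨x, hx, rfl⟩
    exact map_mem_normalizer π (le_normalizer_pRes (hSP hx)) hπs
  · intro H hSH
    have hSH' : (S : Subgroup G) ≤ H.comap π := map_le_iff_le_comap.1 hSH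
    rcases dichG S P L hL _ hSH' with h | h
    · exact Or.inl (map_le_iff_le_comap.2 h)
    · right
      have h1 := map_mono (f := π) h
      rwa [map_comap_eq_self_of_surjective hπs] at h1
  · -- `R` does not centralize `X`
    intro hcent
    apply hiso
    set R := pCoreIn p L with hR
    have hA : (R.map π).comap π = R ⊔ D := by
      rw [comap_map_eq, hkerπ]
    have hAS : R ⊔ D ≤ (S : Subgroup G) := sup_le hRS hDS
    have hPn : ∀ x ∈ P, π x ∈ normalizer ((R.map π : Subgroup _) : Set (G ⧸ D)) := by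
      have h1 : P ≤ (normalizer ((R.map π : Subgroup _) : Set (G ⧸ D))).comap π := by
        conv_lhs => rw [← pRes_sup S hSP]
        refine sup_le ?_ ?_
        · intro x hx
          have h2 := hcent ⟨x, hx, rfl⟩
          exact centralizer_le_normalizer _ h2
        · intro x hx
          exact map_mem_normalizer π (L_le_normalizer_R (hSL hx)) hπs
      exact fun x hx => h1 hx
    have h2 : R ⊔ D ≤ pCoreIn p P := by
      apply le_pCore_of_normal_in (hAS.trans hSP) (S.isPGroup'.to_le hAS)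
      intro x hx
      rw [mem_normalizer_iff]
      intro a
      rw [← hA]
      have h3 := mem_normalizer_iff.1 (hPn x hx) (π a)
      simpa using h3
    exact le_sup_left.trans h2
  · have h1 := genG S P L hSP hL
    have h2 := congrArg (Subgroup.map π) h1
    rwa [Subgroup.map_sup, map_top_of_surjective _ hπs] at h2
  · intro N hN hle
    rw [map_le_iff_le_comap]
    show (pResidual p P).map P.subtype ≤ _
    rw [map_le_iff_le_comap]
    show Subgroup.closure _ ≤ _
    rw [Subgroup.closure_le]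
    intro g hg
    have h1 : (g : G) ∈ pRes p P := ⟨g, mem_pResidual_of_coprime p hg, rfl⟩
    have h2 : π (g : G) ∈ N ⊔ (S : Subgroup G).map π := hle ⟨_, h1, rfl⟩
    have h3 : (orderOf (π (g : G))).Coprime p := by
      have h4 : orderOf (π (g : G)) ∣ orderOf g := by
        have h5 := orderOf_map_dvd (π.comp P.subtype) g
        exact h5
      exact Nat.Coprime.coprime_dvd_left h4 hg
    exact mem_of_coprime_of_sup hN (S.isPGroup'.map π) h2 h3

/-- If the image of `O^p(P)` in `G/O_p(G)` is normal, then `O^p(P)` is normal in `G`. -/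
theorem pRes_normal_of_map_normal (hSP : (S : Subgroup G) ≤ P)
    (hn : ((pRes p P).map (QuotientGroup.mk' (pCore p G))).Normal) : (pRes p P).Normal := by
  classical
  set D := pCore p G with hD
  set π := QuotientGroup.mk' D with hπ
  have hkerπ : π.ker = D := QuotientGroup.ker_mk' D
  have hDS : D ≤ (S : Subgroup G) := pCore_le_sylow S
  set X := pRes p P with hXdef
  have hXP : X ≤ P := pRes_le P
  constructor
  intro n hnX g
  have hle : X ≤ X.comap (MulAut.conj g).toMonoidHom := by
    show (pResidual p P).map P.subtype ≤ _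
    rw [map_le_iff_le_comap]
    show Subgroup.closure _ ≤ _
    rw [Subgroup.closure_le]
    intro g₀ hg₀
    have hg₁ : (g₀ : G) ∈ X := ⟨g₀, mem_pResidual_of_coprime p hg₀, rfl⟩
    show g * (g₀ : G) * g⁻¹ ∈ X
    have h1 : π (g * (g₀ : G) * g⁻¹) ∈ X.map π := by
      rw [map_mul, map_mul, map_inv]
      apply hn.conj_mem
      exact ⟨_, hg₁, rfl⟩
    obtain ⟨x', hx', hxe⟩ := h1
    have h2 : x'⁻¹ * (g * (g₀ : G) * g⁻¹) ∈ D := by
      rw [← hkerπ, MonoidHom.mem_ker, map_mul, map_inv, hxe, inv_mul_cancel]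
    have h3 : g * (g₀ : G) * g⁻¹ ∈ P := by
      have h4 := P.mul_mem (hXP hx') (hSP (hDS h2))
      simpa using h4
    have h5 : (orderOf (⟨_, h3⟩ : P)).Coprime p := by
      rw [Subgroup.orderOf_mk]
      have h6 : orderOf (g * (g₀ : G) * g⁻¹) = orderOf g₀ := by
        rw [← Subgroup.orderOf_coe g₀]
        simpa using (MulAut.conj g).orderOf_eq (g₀ : G)
      rw [h6]
      exact hg₀
    exact ⟨⟨_, h3⟩, mem_pResidual_of_coprime p h5, rfl⟩
  exact hle hnX

end Local

end Cfsg.Agent.Lib.PIso.Local
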